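import Cfsg.Agent.H557.InvE8

/-!
# S1920: the involutions of `chevE8.group K`, `K` finite of odd order (helper169)

`conj_E8` : an involution is conjugate to `t8 K` (type `D₈`) or to `t7 K` (type `A₁E₇`).
-/

set_option autoImplicit false

namespace Cfsg.Agent.H169.Co3

open Cfsg.Lie Cfsg.Agent.ChevalleyStructure Cfsg.Agent.ChevalleyStructure.CoxeterGeomTypes
  Cfsg.Agent.Nodes.RGDChev Cfsg.Agent.KFacts.RgdChevCoord Cfsg.Agent.OddHalf.NI.ModelChev
  Cfsg.Agent.H557.SubTab Cfsg.Agent.H557.SubLink Cfsg.Agent.H557.SignTorus Cfsg.Agent.H557.InvClass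
  Cfsg.Agent.H557.ToralTypes Cfsg.Agent.H557.LinkE8 Cfsg.Agent.H557.OrbE8 Cfsg.Agent.H557.InvE8

universe u

/-- the standard involution of type `D₈` -/
noncomputable abbrev t8 (K : Type u) [Field K] : ↥(chevE8.group K) :=
  th Cfsg.Agent.Nodes.KindE.isType8 (sg K 8 n_TabD8)

/-- the standard involution of type `A₁E₇` -/
noncomputable abbrev t7 (K : Type u) [Field K] : ↥(chevE8.group K) :=
  th Cfsg.Agent.Nodes.KindE.isType8 (sg K 8 n_TabE7A1)

theorem conj_E8 {K : Type u} [Field K] [Finite K] (ho : Odd (Nat.card K)) {u : ↥(chevE8.group K)} (hu : u * u = 1)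
    (hu1 : u ≠ 1) : (∃ g, g * u * g⁻¹ = t8 K) ∨ (∃ g, g * u * g⁻¹ = t7 K) := by
  have hfin : Fintype K := Fintype.ofFinite K
  rw [Nat.card_eq_fintype_card] at ho
  obtain ⟨p, hpp, hpc, hp2⟩ := exists_char K ho
  have : Fact p.Prime := ⟨hpp⟩
  obtain ⟨g, hg⟩ := toral_E8 ho hu
  obtain ⟨b, hb⟩ := surj_E8 hg
  have hconj : IsConj u (th Cfsg.Agent.Nodes.KindE.isType8 b) := isConj_iff.2 ⟨g, hb.symm⟩
  have hb2 : b * b = 1 := by
    apply inj_E8
    rw [map_mul, hb]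
    have : g * u * g⁻¹ * (g * u * g⁻¹) = g * (u * u) * g⁻¹ := by group
    rw [this, hu, mul_one, mul_inv_cancel]
  obtain ⟨m, hm', rfl⟩ := exists_sg hb2
  rcases cover m hm' with h3 | h3 | h3
  · exfalso
    subst h3
    rw [sg_zero, map_one] at hb
    apply hu1
    have h4 : u = g⁻¹ * (g * u * g⁻¹) * g := by group
    rw [h4, ← hb, mul_one, inv_mul_cancel]
  · exact Or.inl (isConj_iff.1 (hconj.trans (D_TabD8.conj hcm p h3)))
  · exact Or.inr (isConj_iff.1 (hconj.trans (D_TabE7A1.conj hcm p h3)))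

end Cfsg.Agent.H169.Co3
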