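import Cfsg.Agent.H971.RV.Lie
import Cfsg.Agent.H943.TorDim

/-!
# S1920: the adjoint module and elements of order prime to `p` (helper169)

* `exists_dg` : diagonal form of an element of order prime to `p`;
* `eig_inv` : `z` a power of `g`: the eigenvalues of `g` on the `(-1)`-eigenspace of `z` are closed under inversion;
* `finrank_neg` : the dimension of the `(-1)`-eigenspace of an involution.
-/

set_option autoImplicit false
set_option linter.unusedSectionVars false

namespace Cfsg.Agent.H169.Co3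

open CoxeterSystem Cfsg Cfsg.Lie Cfsg.Lie.ChevalleyDatum
open Cfsg.Agent.ChevalleyStructure Cfsg.Agent.ChevalleyStructure.Elts Cfsg.Agent.ChevalleyStructure.CoxeterGeom
  Cfsg.Agent.ChevalleyStructure.CoxeterGeomTypes Cfsg.Agent.ChevalleyStructure.NPerm
open Cfsg.Agent.Tits.Roots Cfsg.Agent.Nodes Cfsg.Agent.Nodes.Reps Cfsg.Agent.Nodes.BNOf
  Cfsg.Agent.Nodes.RGDChev
open Cfsg.Agent.KFacts.RgdChevCoord Cfsg.Agent.BpExc.TorAll Cfsg.Agent.BpExc.TorChev
open Cfsg.Agent.H167.EX Cfsg.Agent.H971.RV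
open Module Matrix

universe u

theorem prod_neg_one {ι : Type*} {A : Type*} [CommGroup A] [HasDistribNeg A] (s : Finset ι) (f : ι → ℤ) :
    ∏ i ∈ s, (-1 : A) ^ (f i) = (-1) ^ (∑ i ∈ s, f i) := by
  classical
  induction s using Finset.induction_on with
  | empty => simp
  | insert a s ha ih => rw [Finset.prod_insert ha, Finset.sum_insert ha, ih, _root_.zpow_add]

section gen

variable {D : ChevalleyDatum} {l : ℕ} {M : CoxeterMatrix (Fin l)} (hp : IsType D l M) (p : ℕ) [Fact p.Prime]
  {k : Type u} [Field k] [IsAlgClosed k] [CharP k p] (hk : HAlg p k)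

/-- the diagonal of a torus element -/
noncomputable def dg {D : ChevalleyDatum} {l : ℕ} {k : Type u} [Field k] (c : Fin l → kˣ) : D.Idx → k :=
  Sum.elim (fun _ => (1 : k)) (fun s : Fin D.nroots => ((∏ i, c i ^ (vec D l s i) : kˣ) : k))

include hp hk in
/-- **the diagonal form of an element of order prime to `p`** -/
theorem exists_dg {g : ↥(D.group k)} {N : ℕ} (hN0 : N ≠ 0) (hN : N.Coprime p) (hg : g ^ N = 1) :
    ∃ (a : ↥(D.group k)) (c : Fin l → kˣ),
      (((a * g * a⁻¹ : ↥(D.group k)) : GL D.Idx k) : Matrix D.Idx D.Idx k) = Matrix.diagonal (dg c) := by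
  obtain ⟨a, ha⟩ := Cfsg.Agent.H944.TorAnyChev.exists_conj_mem_TT hp p hk hN0 hN hg
  obtain ⟨c, hc⟩ := Cfsg.Agent.H944.RootVals.TT_diag hp ha
  exact ⟨a, c, hc⟩

theorem rho_dg {t : ↥(D.group k)} {c : Fin l → kˣ}
    (h : ((t : GL D.Idx k) : Matrix D.Idx D.Idx k) = Matrix.diagonal (dg c)) (n : ℕ) (u : D.Idx → k) (i : D.Idx) :
    rho D k (t ^ n) u i = (dg c i) ^ n * u i := by
  rw [rho_apply, Subgroup.coe_pow, Units.val_pow_eq_pow_val, h, Matrix.diagonal_pow, Matrix.mulVec_diagonal]
  rfl

theorem rho_mul (a b : ↥(D.group k)) (v : D.Idx → k) : rho D k (a * b) v = rho D k a (rho D k b v) := by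
  rw [map_mul]; rfl

theorem rho_inj (a : ↥(D.group k)) {v w : D.Idx → k} (h : rho D k a v = rho D k a w) : v = w := by
  have e : ∀ u : D.Idx → k, rho D k a⁻¹ (rho D k a u) = u := by
    intro u
    rw [← rho_mul, inv_mul_cancel, map_one]; rfl
  rw [← e v, ← e w, h]

include hp hk in
/-- **the eigenvalues on the `(-1)`-eigenspace are closed under inversion** -/
theorem eig_inv (h2 : (2 : k) ≠ 0) {g z : ↥(D.group k)} {N : ℕ} (hN0 : N ≠ 0) (hN : N.Coprime p) (hg : g ^ N = 1)
    {m : ℕ} (hm : g ^ m = z) {μ : k} {v : D.Idx → k} (hv : v ≠ 0) (h1 : rho D k g v = μ • v)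
    (hzv : rho D k z v = -v) : ∃ w : D.Idx → k, w ≠ 0 ∧ rho D k g w = μ⁻¹ • w ∧ rho D k z w = -w := by
  classical
  obtain ⟨a, c, hc⟩ := exists_dg hp p hk hN0 hN hg
  set t := a * g * a⁻¹ with ht
  have htm : t ^ m = a * z * a⁻¹ := by rw [ht, conj_pow, hm]
  set u := rho D k a v with hu
  have hu0 : u ≠ 0 := by
    intro h
    apply hv
    apply rho_inj a
    rw [← hu, h, map_zero]
  have e1 : rho D k t u = μ • u := by
    rw [hu, ← rho_mul, ht, show a * g * a⁻¹ * a = a * g by group, rho_mul, h1, map_smul]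
  have e2 : rho D k (t ^ m) u = -u := by
    rw [hu, ← rho_mul, htm, show a * z * a⁻¹ * a = a * z by group, rho_mul, hzv, map_neg]
  obtain ⟨i, hi⟩ : ∃ i, u i ≠ 0 := by
    by_contra hcon
    push Not at hcon
    exact hu0 (funext hcon)
  have e3 : dg c i = μ := by
    have := congrFun e1 i
    rw [← pow_one t, rho_dg hc, pow_one, Pi.smul_apply, smul_eq_mul] at this
    exact mul_right_cancel₀ hi this
  have e4 : (dg c i) ^ m = -1 := by
    have := congrFun e2 i
    rw [rho_dg hc, Pi.neg_apply, ← neg_one_mul] at this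
    exact mul_right_cancel₀ hi this
  have hne : (1 : k) ≠ -1 := by
    intro h
    apply h2
    have : (2 : k) = 1 + 1 := by norm_num
    rw [this]
    nth_rewrite 2 [h]
    rw [add_neg_cancel]
  rcases i with i | s
  · exfalso
    have : dg (D := D) c (Sum.inl i) = 1 := rfl
    rw [this, one_pow] at e4
    exact hne e4
  · have hs' := neg_lt hp.inList s.2
    let s' : Fin D.nroots := ⟨D.neg s.1, hs'⟩
    have hdg : dg (D := D) c (Sum.inr s') = μ⁻¹ := by
      have h3 : dg (D := D) c (Sum.inr s') = ((∏ i, c i ^ (vec D l s' i) : kˣ) : k) := rfl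
      have h4 : dg (D := D) c (Sum.inr s) = ((∏ i, c i ^ (vec D l s i) : kˣ) : k) := rfl
      rw [h3, ← e3, h4, ← Units.val_inv_eq_inv_val, ← Finset.prod_inv_distrib]
      congr 1
      refine Finset.prod_congr rfl fun j _ => ?_
      have h5 : vec D l s' j = -vec D l s j := by
        show vec D l (D.neg s.1) j = _
        rw [vec_neg hp s.2]; rfl
      rw [h5, _root_.zpow_neg]
    let y : D.Idx → k := Pi.single (Sum.inr s') 1
    have hy : ∀ n, rho D k (t ^ n) y = (μ⁻¹) ^ n • y := by
      intro n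
      funext j
      rw [rho_dg hc, Pi.smul_apply, smul_eq_mul]
      by_cases hj : j = Sum.inr s'
      · rw [hj, hdg]
      · have : y j = 0 := Pi.single_eq_of_ne hj 1
        rw [this, mul_zero, mul_zero]
    refine ⟨rho D k a⁻¹ y, ?_, ?_, ?_⟩
    · intro h
      have h6 : y = 0 := by
        apply rho_inj a⁻¹
        rw [h, map_zero]
      have h7 := congrFun h6 (Sum.inr s')
      rw [show y (Sum.inr s') = 1 from Pi.single_eq_same _ _] at h7
      exact one_ne_zero h7
    · rw [← rho_mul, show g * a⁻¹ = a⁻¹ * t by rw [ht]; group, rho_mul]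
      have := hy 1
      rw [pow_one, pow_one] at this
      rw [this, map_smul]
    · rw [← rho_mul, show z * a⁻¹ = a⁻¹ * t ^ m by rw [htm]; group, rho_mul, hy m, ← e3, inv_pow, e4, map_smul,
        inv_neg, inv_one, neg_one_smul]

include hp hk in
/-- **the dimension of the `(-1)`-eigenspace of an involution** -/
theorem exists_neg (hp2 : p ≠ 2) {z : ↥(D.group k)} (hz : z * z = 1) (hz1 : z ≠ 1) :
    ∃ b : Fin l → Bool, b ≠ (fun _ => false) ∧ finrank k (LinearMap.ker (rho D k z - (-1 : k) • (1 : End k (D.Idx → k)))) =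
      (Finset.univ.filter fun s : Fin D.nroots => Odd (∑ i, if b i then vec D l s i else 0)).card := by
  classical
  have h2p : (2 : ℕ).Coprime p := (Nat.coprime_primes Nat.prime_two Fact.out).2 fun h' => hp2 h'.symm
  have h2 : (2 : k) ≠ 0 := by
    intro h0
    have h1 : p ∣ 2 := (CharP.cast_eq_zero_iff k p 2).1 (by exact_mod_cast h0)
    exact hp2 ((Nat.prime_dvd_prime_iff_eq Fact.out Nat.prime_two).1 h1)
  have hne : (1 : k) ≠ -1 := by
    intro h
    apply h2
    have : (2 : k) = 1 + 1 := by norm_num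
    rw [this]
    nth_rewrite 2 [h]
    rw [add_neg_cancel]
  obtain ⟨a, c, hc⟩ := exists_dg hp p hk (N := 2) two_ne_zero h2p (by rw [pow_two, hz])
  set t := a * z * a⁻¹ with ht
  have htt : t ^ 2 = 1 := by rw [ht, conj_pow, pow_two z, hz, mul_one, mul_inv_cancel]
  -- the values on the simple roots
  have hd2 : ∀ i, (dg (D := D) c i) ^ 2 = 1 := by
    intro i
    have h3 := rho_dg (n := 2) hc (Pi.single i 1) i
    rw [htt, map_one, Module.End.one_apply, Pi.single_eq_same, mul_one] at h3
    exact h3.symm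
  have hsimple : ∀ j : Fin l, dg (D := D) c (Sum.inr ⟨D.simple j, simple_lt hp.inList (lt_rank hp j)⟩) = (c j : k) := by
    intro j
    show (((∏ i, c i ^ (vec D l (D.simple j) i) : kˣ)) : k) = c j
    rw [vec_simple hp j, Finset.prod_eq_single j]
    · rw [sr_self, zpow_one]
    · intro i _ hij
      rw [sr_ne hij, zpow_zero]
    · intro h
      exact absurd (Finset.mem_univ j) h
  have hcj : ∀ j, c j = 1 ∨ c j = -1 := by
    intro j
    have h3 := hd2 (Sum.inr ⟨D.simple j, simple_lt hp.inList (lt_rank hp j)⟩)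
    rw [hsimple j, pow_two, mul_self_eq_one_iff] at h3
    rcases h3 with h4 | h4
    · left; exact Units.ext h4
    · right; exact Units.ext (by rw [h4, Units.val_neg, Units.val_one])
  have hcu : (1 : kˣ) ≠ -1 := by
    intro h
    apply hne
    have := congrArg Units.val h
    rwa [Units.val_neg, Units.val_one] at this
  let b : Fin l → Bool := fun i => decide (c i = -1)
  have hcb : ∀ (i : Fin l) (n : ℤ), c i ^ n = (-1 : kˣ) ^ (if b i then n else 0) := by
    intro i n
    rcases hcj i with h | h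
    · have : b i = false := by simp only [b, h, decide_eq_false_iff_not]; exact hcu
      rw [this, h]; simp
    · have : b i = true := by simp only [b, h, decide_eq_true_eq]
      rw [this, h]; simp
  have hval : ∀ s : Fin D.nroots, dg (D := D) c (Sum.inr s) = -1 ↔ Odd (∑ i, if b i then vec D l s i else 0) := by
    intro s
    have h3 : (∏ i, c i ^ (vec D l s i) : kˣ) = (-1 : kˣ) ^ (∑ i, if b i then vec D l s i else 0) := by
      rw [← prod_neg_one]
      exact Finset.prod_congr rfl fun i _ => hcb i _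
    have h4 : dg (D := D) c (Sum.inr s) = ((∏ i, c i ^ (vec D l s i) : kˣ) : k) := rfl
    rw [h4, h3]
    rcases Int.even_or_odd (∑ i, if b i then vec D l s i else 0) with h5 | h5
    · rw [h5.neg_one_zpow, Units.val_one]
      exact ⟨fun h => absurd h hne, fun h => absurd h5 (Int.not_even_iff_odd.2 h)⟩
    · rw [h5.neg_one_zpow, Units.val_neg, Units.val_one]
      exact ⟨fun _ => h5, fun _ => rfl⟩
  refine ⟨b, ?_, ?_⟩
  · intro h0
    apply hz1
    have hc1 : ∀ i, c i = 1 := by
      intro i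
      rcases hcj i with h | h
      · exact h
      · have : b i = true := by simp only [b, h, decide_eq_true_eq]
        rw [h0] at this
        exact absurd this (by simp)
    have h3 : dg (D := D) c = fun _ => (1 : k) := by
      funext i
      rcases i with i | s
      · rfl
      · show (((∏ i, c i ^ (vec D l s i) : kˣ)) : k) = 1
        rw [Finset.prod_eq_one fun i _ => by rw [hc1, _root_.one_zpow], Units.val_one]
    have h4 : t = 1 := by
      apply Subtype.ext
      apply Units.ext
      rw [hc, h3, Matrix.diagonal_one]; rfl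
    have h5 : z = a⁻¹ * t * a := by rw [ht]; group
    rw [h5, h4, mul_one, inv_mul_cancel]
  · have hA : ((a : GL D.Idx k) : Matrix D.Idx D.Idx k) * ((z : GL D.Idx k) : Matrix D.Idx D.Idx k) *
        (((a : GL D.Idx k)⁻¹ : GL D.Idx k) : Matrix D.Idx D.Idx k) = Matrix.diagonal (dg c) := by
      rw [← hc, ht]; rfl
    have h3 := Cfsg.Agent.H943.TorDim.finrank_ker_conj_diag (a : GL D.Idx k) (dg c) hA (-1)
    rw [rho_eq, h3]
    rw [← Finset.card_map (Function.Embedding.inr : Fin D.nroots ↪ Fin D.rank ⊕ Fin D.nroots)]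
    congr 1
    ext i
    rcases i with i | s
    · simp only [Finset.mem_filter, Finset.mem_univ, true_and, Finset.mem_map, Function.Embedding.inr_apply, reduceCtorEq,
        and_false, exists_false, iff_false]
      exact hne
    · simp only [Finset.mem_filter, Finset.mem_univ, true_and, Finset.mem_map, Function.Embedding.inr_apply,
        Sum.inr.injEq, exists_eq_right]
      exact hval s

/-! ### the representation of `C_G(z)` on the `(-1)`-eigenspace -/

section rep

variable {G : Type*} [Group G] (φ : G →* ↥(D.group k)) (z : G)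

/-- the `(-1)`-eigenspace -/
noncomputable def Vm : Submodule k (D.Idx → k) := LinearMap.ker (rho D k (φ z) - (-1 : k) • (1 : End k (D.Idx → k)))

theorem mem_Vm {v : D.Idx → k} : v ∈ Vm φ z ↔ rho D k (φ z) v = -v := by
  rw [Vm, LinearMap.mem_ker, LinearMap.sub_apply, LinearMap.smul_apply, Module.End.one_apply, sub_eq_zero,
    neg_one_smul]

theorem Vm_inv (g : ↥(Subgroup.centralizer ({z} : Set G))) (v : D.Idx → k) (hv : v ∈ Vm φ z) :
    rho D k (φ g) v ∈ Vm φ z := by
  have hg : (g : G) * z = z * g := Subgroup.mem_centralizer_singleton_iff.1 g.2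
  rw [mem_Vm] at hv ⊢
  rw [← rho_mul, ← map_mul, ← hg, map_mul, rho_mul, hv, map_neg]

/-- the representation, as a homomorphism to the endomorphisms -/
noncomputable def Pm : ↥(Subgroup.centralizer ({z} : Set G)) →* Module.End k ↥(Vm φ z) where
  toFun g := (rho D k (φ g)).restrict (Vm_inv φ z g)
  map_one' := by
    refine LinearMap.ext fun v => Subtype.ext ?_
    rw [LinearMap.restrict_coe_apply]
    show rho D k (φ 1) v = v
    rw [map_one, map_one]; rfl
  map_mul' g h := by
    refine LinearMap.ext fun v => Subtype.ext ?_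
    rw [LinearMap.restrict_coe_apply, Module.End.mul_apply, LinearMap.restrict_coe_apply, LinearMap.restrict_coe_apply]
    show rho D k (φ (g * h)) v = _
    rw [map_mul, rho_mul]

/-- the representation of the centraliser -/
noncomputable def Rm : ↥(Subgroup.centralizer ({z} : Set G)) →* (↥(Vm φ z) ≃ₗ[k] ↥(Vm φ z)) :=
  (LinearMap.GeneralLinearGroup.generalLinearEquiv k ↥(Vm φ z)).toMonoidHom.comp (Pm φ z).toHomUnits

theorem Rm_apply (g : ↥(Subgroup.centralizer ({z} : Set G))) (v : ↥(Vm φ z)) :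
    ((Rm φ z g v : ↥(Vm φ z)) : D.Idx → k) = rho D k (φ g) v := rfl

theorem Rm_z (hz : z ∈ Subgroup.centralizer ({z} : Set G)) (v : ↥(Vm φ z)) : Rm φ z ⟨z, hz⟩ v = -v := by
  apply Subtype.ext
  rw [Rm_apply]
  exact (mem_Vm φ z).1 v.2

/-- the representation is faithful -/
theorem Rm_inj (L : Cfsg.Agent.H512.LinFour.IdealF.Lac D) (h2 : (2 : k) ≠ 0) (hφ : Function.Injective φ) (hzz : z * z = 1)
    (hz1 : z ≠ 1) {g : ↥(Subgroup.centralizer ({z} : Set G))} (hg : Rm φ z g = 1) : g = 1 := by
  have h1 : φ g = 1 := by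
    refine faithful L h2 (c := φ z) (n := 2) (fun h => hz1 (hφ (by rw [h, map_one]))) (by exact_mod_cast h2)
      (by rw [pow_two, ← map_mul, hzz, map_one]) ?_
    intro v
    have hw : rho D k (φ z) v - v ∈ Vm φ z := by
      rw [mem_Vm, map_sub, ← rho_mul, ← map_mul, hzz, map_one, map_one, Module.End.one_apply]
      abel
    have h3 := congrArg (fun f : ↥(Vm φ z) ≃ₗ[k] ↥(Vm φ z) => ((f ⟨_, hw⟩ : ↥(Vm φ z)) : D.Idx → k)) hg
    exact h3
  exact Subtype.ext (hφ (by rw [h1, Subgroup.coe_one, map_one]))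

include hp hk in
/-- closure of the eigenvalues under inversion -/
theorem Rm_inv (h2 : (2 : k) ≠ 0) (g : ↥(Subgroup.centralizer ({z} : Set G))) (hgz : ∃ m : ℕ, (g : G) ^ m = z)
    (hg : ((orderOf g : ℕ) : k) ≠ 0) (μ : k)
    (h : Module.End.HasEigenvalue ((Rm φ z g : ↥(Vm φ z) ≃ₗ[k] ↥(Vm φ z)) : ↥(Vm φ z) →ₗ[k] ↥(Vm φ z)) μ) :
    Module.End.HasEigenvalue ((Rm φ z g : ↥(Vm φ z) ≃ₗ[k] ↥(Vm φ z)) : ↥(Vm φ z) →ₗ[k] ↥(Vm φ z)) (μ ^ (-1 : ℤ)) := by
  obtain ⟨m, hm⟩ := hgz
  obtain ⟨v, hv⟩ := h.exists_hasEigenvector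
  have h3 : rho D k (φ g) (v : D.Idx → k) = μ • (v : D.Idx → k) := by
    have := congrArg Subtype.val hv.apply_eq_smul
    exact this
  have hv0 : (v : D.Idx → k) ≠ 0 := fun h => hv.2 (Subtype.ext h)
  have hN0 : orderOf g ≠ 0 := by
    intro h0
    apply hg
    rw [h0, Nat.cast_zero]
  have hN : (orderOf g).Coprime p := by
    rw [Nat.coprime_comm, Nat.Prime.coprime_iff_not_dvd Fact.out]
    intro h4
    exact hg ((CharP.cast_eq_zero_iff k p _).2 h4)
  have hgN : (φ g) ^ orderOf g = 1 := by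
    rw [← map_pow, ← Subgroup.coe_pow, pow_orderOf_eq_one, Subgroup.coe_one, map_one]
  obtain ⟨w, hw0, hw1, hw2⟩ := eig_inv hp p hk h2 hN0 hN hgN (m := m) (z := φ z) (by rw [← map_pow, hm]) hv0 h3
    ((mem_Vm φ z).1 v.2)
  rw [_root_.zpow_neg, _root_.zpow_one]
  refine Module.End.hasEigenvalue_of_hasEigenvector (x := ⟨w, (mem_Vm φ z).2 hw2⟩) ⟨?_, ?_⟩
  · rw [Module.End.mem_eigenspace_iff]
    apply Subtype.ext
    exact hw1
  · intro h0
    exact hw0 (congrArg Subtype.val h0)

end rep

end gen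

end Cfsg.Agent.H169.Co3
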