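import Cfsg.Agent.H169.Co3.RowE8
import Cfsg.Agent.H736.Co3.D8
import Cfsg.Agent.H127.Co3.Glue8F
import Cfsg.Agent.H64.Co3.D8
import Cfsg.Agent.H748.Co3.Ker8

/-!
# S1920, case B: the row `E₈(q)`, `z` of type `D₈` (helper169)
-/

set_option autoImplicit false

namespace Cfsg.Agent.H169.Co3

open Cfsg Cfsg.Lie Cfsg.Lie.ChevalleyDatum Matrix
open Cfsg.Agent.H13.Co3 (CB)
open Cfsg.Agent.H736.Co3
open Module Subgroup

theorem e8_t8_of {F : Type} [Field F] [Finite F] (h2 : (2 : F) ≠ 0)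
    (hk : ∀ g : ↥(chevE8.group F), g * z8 F = z8 F * g →
      (∀ v ∈ Lp T8 chevE8 F, ((g : GL chevE8.Idx F) : Matrix chevE8.Idx chevE8.Idx F) *ᵥ v = v) → g = 1 ∨ g = z8 F)
    (P N0 : Subgroup ↥(chevE8.group F)) (s : ↥(chevE8.group F))
    (ψ : ↥(normalizer (P : Set ↥(chevE8.group F))) →* Equiv.Perm (Fin 6)) (C : CB P N0 (t8 F) s ψ) : False := by
  have hfin : Fintype F := Fintype.ofFinite F
  have T := d8i_of (odd_card h2) h2 hk
  have tab := Cfsg.Agent.H127.Co3.tabI_Rl h2 C (hz8 h2)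
  exact Cfsg.Agent.H64.Co3.d8_false C T tab

/-- **`z = t8` is impossible** -/
theorem e8_t8 {F : Type} [Field F] [Finite F] (h2 : (2 : F) ≠ 0) (P N0 : Subgroup ↥(chevE8.group F))
    (s : ↥(chevE8.group F)) (ψ : ↥(normalizer (P : Set ↥(chevE8.group F))) →* Equiv.Perm (Fin 6))
    (C : CB P N0 (t8 F) s ψ) : False := by
  refine e8_t8_of h2 (fun g _ h => ?_) P N0 s ψ C
  rcases Cfsg.Agent.H748.Co3.Ker8.ker8_one h2 (z8 F).2 (hz8 h2) g.2 h with h1 | h1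
  · exact Or.inl (Subtype.ext h1)
  · exact Or.inr (Subtype.ext h1)

end Cfsg.Agent.H169.Co3
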