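import Cfsg.Agent.H169.Co3.RowE8D
import Cfsg.Agent.H392.Co3.E8A1E7

/-!
# S1920, case B: the row `E₈(q)` (helper169)
-/

set_option autoImplicit false

universe u

namespace Cfsg.Agent.H169.Co3

open Cfsg Cfsg.Lie Cfsg.Lie.ChevalleyDatum

/-- **the row `E₈`** -/
theorem e8 : Cfsg.Agent.H527.Co3.Row.{u} @Lie.IsoE8 := by
  refine e8_of (fun F _ _ h2 P N0 s ψ C => e8_t8 h2 P N0 s ψ C) ?_
  intro F _ _ h2 P N0 s ψ C
  have hfin : Fintype F := Fintype.ofFinite F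
  exact Cfsg.Agent.H392.Co3.e8_112_of_dim h2 C (mL_t7 h2)

end Cfsg.Agent.H169.Co3
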